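import Cfsg.Agent.H438.RC.SymAlpha
import Cfsg.Agent.H438.RC.SymGen

/-!
# S3510, E13: the assembly (helper438)
-/

set_option autoImplicit false

namespace Cfsg.Agent.H438.RC

open Matrix Cfsg Cfsg.Agent.LieClassical.HermBasic Cfsg.Agent.LieClassical.HermSiegel
  Cfsg.Agent.LieClassical.HermGen Cfsg.Agent.LieClassical.SUBasic Cfsg.Agent.ClassicalGeometry.PSUAutBasic
  Cfsg.Agent.ClassicalGeometry.PSUAutCount Cfsg.Agent.LieClassical.FieldTransfer Cfsg.Agent.ClassicalGeometry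
  Cfsg.Agent.H380.RC

theorem graphSym_of (hDec : DecStmt) (hS : SmallStmt) (hStr : StrTStmt) (h3 : SymThree) (h4 : SymFour)
    (hb : SymBeta) (hc : SymGamma) (hd : SymDelta) : GraphSym := by
  intro G Ω _ _ _ _ _ N F _ _ n q U ι _ x f r hfam hcov ⟨hq, hIH, i₀, T, hG, hv⟩
  have hT := symT_of hG hv
  obtain ⟨g, hg, hcg, hpow⟩ := exists_gen hG
  by_cases hne : ∃ v, g v ≠ v
  · have hY : Sym U x f r i₀ T g := ⟨hG, hq, hcov, hT, hg, hne, hcg, hpow⟩
    rcases hStr U.hF hq T g hT hg hne with h | h | h | h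
    · obtain ⟨A, B, h5, h6, h7, h8, h9, h10, h11, h12, h13⟩ := h
      exact sym_alpha hDec hS h3 h4 U x f r i₀ T g hY hIH A B h5 h6 h7 h8 h9 h10 h11 h12 h13
    · obtain ⟨W, W', h5, h6, h7, h8, h9, h10⟩ := h
      exact hb U x f r i₀ T g hY hIH W W' h5 h6 h7 h8 h9 h10
    · obtain ⟨W, W', h5, h6, h7, h8, h9, h10⟩ := h
      exact hc U x f r i₀ T g hY hIH W W' h5 h6 h7 h8 h9 h10
    · obtain ⟨V₁, V₂, h5, h6, h7, h8, h9, h10, h11, h12⟩ := h
      exact hd U x f r i₀ T g hY hIH V₁ V₂ h5 h6 h7 h8 h9 h10 h11 h12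
  · push Not at hne
    refine symZero U x f r i₀ T hG hq hcov hv fun j hj hjq => ?_
    obtain ⟨k, hk⟩ := hpow j hj hjq
    apply hfam.pf.ne j
    rw [(hfam.lft j).eq_one_iff]
    refine ⟨1, fun v => ?_⟩
    rw [hk, one_smul]
    exact Function.iterate_fixed (hne v) k

end Cfsg.Agent.H438.RC
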