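import Cfsg.Agent.H380.RC.EStmt

/-!
# S3510, family E, box E13 (`GraphSym`): exact statements of the pieces (helper438)

* `SymT` : the conjugation `T` (symmetric form on `Fix T`, `ε = 1`);
* `SymG` : `g` a linear isometry of odd order prime to `q`, commuting with `T`;
* `Cg g u` : `u` is additive, linear and commutes with `g`;
* `Sym` : the situation of the case split: `g` generates the `p'`-part of the linear members of the family;
* `StrTStmt` : the case split (linear algebra, helper398);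
* `SymZero` : (0), `SymDelta` : (1d) (helper63).
-/

set_option autoImplicit false

namespace Cfsg.Agent.H438.RC

open Matrix Cfsg Cfsg.Agent.LieClassical.HermBasic Cfsg.Agent.LieClassical.HermSiegel
  Cfsg.Agent.ClassicalGeometry.PSUAutBasic Cfsg.Agent.ClassicalGeometry.PSUAutCount Cfsg.Agent.H380.RC

section defs

variable {F : Type*} [Field F] {n : ℕ}

/-- additive, linear, commuting with `g` -/
structure Cg (g u : (Fin n → F) → (Fin n → F)) : Prop where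
  add : ∀ v w, u (v + w) = u v + u w
  lin : Lin u
  comm : ∀ v, u (g v) = g (u v)

/-- `T` is a conjugation, the form on `Fix T` is symmetric with values in the fixed field -/
structure SymT (q : ℕ) (T : (Fin n → F) → (Fin n → F)) : Prop where
  TT : ∀ v, T (T v) = v
  add : ∀ v w, T (v + w) = T v + T w
  smul : ∀ (c : F) v, T (c • v) = c ^ q • T v
  herm : ∀ u v, hermForm n F q (T u) (T v) = hermForm n F q u v ^ q

/-- `g` is a linear isometry of odd order prime to `q`, commuting with `T` -/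
structure SymG (q : ℕ) (T g : (Fin n → F) → (Fin n → F)) : Prop where
  add : ∀ v w, g (v + w) = g v + g w
  lin : Lin g
  herm : ∀ u v, hermForm n F q (g u) (g v) = hermForm n F q u v
  comm : ∀ v, g (T v) = T (g v)
  ord : ∃ m : ℕ, Odd m ∧ m.Coprime q ∧ ∀ v, g^[m] v = v

end defs

/-- the situation of the case split of `GraphSym`: `g` generates the `p'`-part of the linear members of the family -/
structure Sym {G Ω : Type*} [Group G] [MulAction G Ω] {N : Subgroup G} {F : Type*} [Field F] [Fintype F] {n q : ℕ}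
    (U : UEnv G Ω N F n q) {ι : Type*} (x : ι → G) (f : ι → (Fin n → F) → (Fin n → F)) (r : ι → ℕ) (i₀ : ι)
    (T g : (Fin n → F) → (Fin n → F)) : Prop where
  gf : GForm U x f r i₀ T
  odd : Odd q
  cov : H106.RC.Cov Ω x
  symT : SymT q T
  symG : SymG q T g
  ne : ∃ v, g v ≠ v
  /-- the linear members commute with `g`, use `Cg g (f j)` -/
  cg : ∀ j, j ≠ i₀ → Cg g (f j)
  /-- the linear members of order prime to `q` are powers of `g` -/
  pow : ∀ j, j ≠ i₀ → (r j).Coprime q → ∃ k, ∀ v, f j v = g^[k] v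

/-- STR-T (helper398) : the case split -/
def StrTStmt : Prop :=
  ∀ {F : Type} [Field F] [Fintype F] {n q : ℕ} (_ : Fintype.card F = q ^ 2) (_ : Odd q)
    (T g : (Fin n → F) → (Fin n → F)), SymT q T → SymG q T g → (∃ v, g v ≠ v) →
    -- (a)
    (∃ A B : Submodule F (Fin n → F), NDeg q A ∧ NDeg q B ∧ IsCompl A B ∧ A ≠ ⊥ ∧ B ≠ ⊥ ∧
      (∀ v ∈ A, ∀ w ∈ B, hermForm n F q v w = 0) ∧ Stab T A ∧ Stab T B ∧ ∀ u, Cg g u → Stab u A ∧ Stab u B) ∨
    -- (b)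
    (∃ W W' : Submodule F (Fin n → F), TS q W ∧ TS q W' ∧ IsCompl W W' ∧ Stab T W ∧ Stab T W' ∧
      ∀ u, Cg g u → Stab u W ∧ Stab u W') ∨
    -- (c)
    (∃ W W' : Submodule F (Fin n → F), TS q W ∧ TS q W' ∧ IsCompl W W' ∧ (∀ v ∈ W, T v ∈ W') ∧ (∀ v ∈ W', T v ∈ W) ∧
      ∀ u, Cg g u → Stab u W ∧ Stab u W') ∨
    -- (d)
    (∃ V₁ V₂ : Submodule F (Fin n → F), NDeg q V₁ ∧ NDeg q V₂ ∧ IsCompl V₁ V₂ ∧
      (∀ v ∈ V₁, ∀ w ∈ V₂, hermForm n F q v w = 0) ∧ (∀ v ∈ V₁, T v ∈ V₂) ∧ (∀ v ∈ V₂, T v ∈ V₁) ∧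
      (∀ u, Cg g u → Stab u V₁ ∧ Stab u V₂) ∧
      (ScalOn g V₁ ∨ ∃ (s : SU n F q) (g₀ : (Fin n → F) → (Fin n → F)), (∀ v ∈ V₂, act s v = v) ∧
        (∀ u, Cg g u → ∀ v, act s (u v) = u (act s v)) ∧ ¬ ScalOn (act s) V₁ ∧
        (∀ v w, g₀ (v + w) = g₀ v + g₀ w) ∧ Lin g₀ ∧ Stab g₀ V₁ ∧
        (∀ v ∈ V₁, ∀ w ∈ V₁, hermForm n F q (g₀ v) (g₀ w) = hermForm n F q v w) ∧
        ∃ k l : ℕ, ∀ v ∈ V₁, g v = g₀^[k] v ∧ act s v = g₀^[l] v))

/-- (0) : all linear members have order not prime to `q` (so there is at most one) -/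
def SymZero : Prop :=
  ∀ {G Ω : Type} [Group G] [Finite G] [Finite Ω] [Nonempty Ω] [MulAction G Ω] {N : Subgroup G} {F : Type} [Field F]
    [Fintype F] {n q : ℕ} (U : UEnv G Ω N F n q) {ι : Type} [Finite ι] (x : ι → G)
    (f : ι → (Fin n → F) → (Fin n → F)) (r : ι → ℕ) (i₀ : ι) (T : (Fin n → F) → (Fin n → F)),
    GForm U x f r i₀ T → Odd q → H106.RC.Cov Ω x → (∃ v, T v = v ∧ hermForm n F q v v ≠ 0) →
    (∀ j, j ≠ i₀ → ¬ (r j).Coprime q) → False

/-- (1d) (helper63) : `V = V₁ ⟂ V₂`, `T` interchanges `V₁` and `V₂` -/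
def SymDelta : Prop :=
  ∀ {G Ω : Type} [Group G] [Finite G] [Finite Ω] [Nonempty Ω] [MulAction G Ω] {N : Subgroup G} {F : Type} [Field F]
    [Fintype F] {n q : ℕ} (U : UEnv G Ω N F n q) {ι : Type} [Finite ι] (x : ι → G)
    (f : ι → (Fin n → F) → (Fin n → F)) (r : ι → ℕ) (i₀ : ι) (T g : (Fin n → F) → (Fin n → F)),
    Sym U x f r i₀ T g → H106.RC.IH (Nat.card (PSU n F q)) →
    ∀ V₁ V₂ : Submodule F (Fin n → F), NDeg q V₁ → NDeg q V₂ → IsCompl V₁ V₂ →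
      (∀ v ∈ V₁, ∀ w ∈ V₂, hermForm n F q v w = 0) → (∀ v ∈ V₁, T v ∈ V₂) → (∀ v ∈ V₂, T v ∈ V₁) →
      (∀ u, Cg g u → Stab u V₁ ∧ Stab u V₂) →
      (ScalOn g V₁ ∨ ∃ (s : SU n F q) (g₀ : (Fin n → F) → (Fin n → F)), (∀ v ∈ V₂, act s v = v) ∧
        (∀ u, Cg g u → ∀ v, act s (u v) = u (act s v)) ∧ ¬ ScalOn (act s) V₁ ∧
        (∀ v w, g₀ (v + w) = g₀ v + g₀ w) ∧ Lin g₀ ∧ Stab g₀ V₁ ∧
        (∀ v ∈ V₁, ∀ w ∈ V₁, hermForm n F q (g₀ v) (g₀ w) = hermForm n F q v w) ∧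
        ∃ k l : ℕ, ∀ v ∈ V₁, g v = g₀^[k] v ∧ act s v = g₀^[l] v) → False

end Cfsg.Agent.H438.RC
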